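import Cfsg.Agent.H413.L16.Nel

/-!
# S5917: parity tables of the root system `E₈` (helper201)
-/

set_option autoImplicit false
set_option maxRecDepth 100000

namespace Cfsg.Agent.H201.L34

open Cfsg Cfsg.Lie
open Cfsg.Agent.ChevalleyStructure.Columns (car cor)
open Cfsg.Agent.H413.L16 (six)

/-- the table : every root has an odd product with a simple root, on both sides -/
theorem par_tab : ((List.range 240).all fun s => (List.range 8).any fun i =>
    decide (car chevE8 i s % 2 ≠ 0) && decide ((∑ k : Fin 8, cor chevE8 s k * car chevE8 k (six (Fin.ofNat 8 i))) % 2 ≠ 0)) =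
      true := by
  decide +kernel

/-- the parity code of a root -/
def pcode (s : ℕ) : ℕ := ((List.range 8).map fun i => (car chevE8 i s % 2).toNat * 2 ^ i).sum

/-- the positive roots have different parity codes -/
theorem pcode_nodup : ((List.range 120).map pcode).Nodup := by decide +kernel

/-- the Dynkin diagram is connected -/
theorem conn_tab : ∀ S : Finset (Fin 8), S.Nonempty → (∀ i ∈ S, ∀ j : Fin 8,
    ((i : ℕ), (j : ℕ)) ∈ [(0, 2), (2, 0), (2, 3), (3, 2), (1, 3), (3, 1), (3, 4), (4, 3), (4, 5), (5, 4), (5, 6), (6, 5), (6, 7),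
      (7, 6)] → j ∈ S) → S = Finset.univ := by decide +kernel

theorem adj_tab : ∀ i j : Fin 8, ((i : ℕ), (j : ℕ)) ∈ [(0, 2), (2, 0), (2, 3), (3, 2), (1, 3), (3, 1), (3, 4), (4, 3), (4, 5),
    (5, 4), (5, 6), (6, 5), (6, 7), (7, 6)] → car chevE8 i (six j) % 2 ≠ 0 := by decide +kernel

end Cfsg.Agent.H201.L34
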