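import Cfsg.Agent.H201.L34.TorTab

/-!
# S5917: sets of functionals closed under the generators (helper201)

* `mem_iff_rt` : a set of masks closed under the generators is a union of orbits;
* `mtv_dec9`, `exists_mask`, `dec9_xor`, `dec9_inj` : masks and functionals.
-/

set_option autoImplicit false
set_option maxRecDepth 100000

namespace Cfsg.Agent.H201.L34

open Cfsg.Agent.H288.L34 (M act)

attribute [local irreducible] rt mt nx gk pts

theorem par9_sum (f : ℕ → Bool) : ∀ k : ℕ, ((List.range k).foldr (fun j b => xor (f j) b) false) =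
    decide ((∑ j ∈ Finset.range k, if f j then (1 : ZMod 2) else 0) = 1) := by
  have h : ∀ (l : List ℕ) (b : Bool), l.foldr (fun j b => xor (f j) b) b =
      xor (l.foldr (fun j b => xor (f j) b) false) b := by
    intro l b
    induction l with
    | nil => simp
    | cons a l ih => rw [List.foldr_cons, List.foldr_cons, ih, Bool.xor_assoc]
  have hz : ∀ x : ZMod 2, x = 0 ∨ x = 1 := by decide
  intro k
  induction k with
  | zero => simp
  | succ k ih =>
    rw [List.range_succ, List.foldr_append, Finset.sum_range_succ, h, ih, List.foldr_cons, List.foldr_nil]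
    rcases hz (∑ j ∈ Finset.range k, if f j then (1 : ZMod 2) else 0) with h1 | h1 <;> rw [h1] <;>
      generalize f k = b <;> revert b <;> decide

theorem mtv_dec9 {k : ℕ} (hk : k ∈ [0, 1, 4]) {n : ℕ} (hn : n < 512) : mtv k (dec9 n) = dec9 (mt k n) := by
  funext i
  have h1 : par9 ((M k).getD i 0 &&& n) = (mt k n).testBit i := by
    simp only [List.mem_cons, List.not_mem_nil, or_false] at hk
    rcases hk with rfl | rfl | rfl
    · exact beq_iff_eq.1 (List.all_eq_true.1 (List.all_eq_true.1 tab_TM0 n (List.mem_range.2 hn)) i (List.mem_range.2 i.2))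
    · exact beq_iff_eq.1 (List.all_eq_true.1 (List.all_eq_true.1 tab_TM1 n (List.mem_range.2 hn)) i (List.mem_range.2 i.2))
    · exact beq_iff_eq.1 (List.all_eq_true.1 (List.all_eq_true.1 tab_TM4 n (List.mem_range.2 hn)) i (List.mem_range.2 i.2))
  unfold dec9 mtv
  rw [← h1]
  unfold par9
  rw [par9_sum (fun j => ((M k).getD i 0 &&& n).testBit j) 9, Finset.sum_range]
  have h2 : (∑ j : Fin 9, if ((M k).getD i 0).testBit j then (if n.testBit j then (1 : ZMod 2) else 0) else 0) =
      ∑ j : Fin 9, if ((M k).getD i 0 &&& n).testBit j then (1 : ZMod 2) else 0 := by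
    refine Finset.sum_congr rfl fun j _ => ?_
    rw [Nat.testBit_and]
    cases ((M k).getD i 0).testBit j <;> cases n.testBit j <;> simp
  rw [h2]
  have hz : ∀ x : ZMod 2, x = if (decide (x = 1)) = true then 1 else 0 := by decide
  exact hz _

theorem mt_lt {k : ℕ} (hk : k ∈ [0, 1, 4]) {n : ℕ} (hn : n < 512) : mt k n < 512 := by
  have h := List.all_eq_true.1 (List.all_eq_true.1 mt_lt' k hk) n (List.mem_range.2 hn)
  rwa [Nat.blt_eq] at h

theorem gk_mem (d : ℕ) : gk d ∈ [0, 1, 4] := by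
  unfold gk
  split_ifs <;> simp

theorem mt_inv {n : ℕ} (hn : n < 512) : mt 0 (mt 0 n) = n ∧ mt 1 (mt 1 n) = n ∧ mt 4 (mt 4 (mt 4 n)) = n := by
  have h := List.all_eq_true.1 mt_inv' n (List.mem_range.2 hn)
  rw [Bool.and_eq_true, Bool.and_eq_true, beq_iff_eq, beq_iff_eq, beq_iff_eq] at h
  exact ⟨h.1.1, h.1.2, h.2⟩

theorem rt_mem {n : ℕ} (hn : n < 512) : rt n = 0 ∧ n = 0 ∨ rt n = 1 ∧ n ∈ pts ∨ rt n = 2 ∨ rt n = 24 := by
  have h := List.all_eq_true.1 rt_mem' n (List.mem_range.2 hn)
  rw [Bool.or_eq_true, Bool.or_eq_true, Bool.or_eq_true, Bool.and_eq_true, Bool.and_eq_true, beq_iff_eq, beq_iff_eq,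
    beq_iff_eq, beq_iff_eq, beq_iff_eq, List.contains_iff_mem] at h
  rcases h with ((h | h) | h) | h
  · exact Or.inl h
  · exact Or.inr (Or.inl h)
  · exact Or.inr (Or.inr (Or.inl h))
  · exact Or.inr (Or.inr (Or.inr h))

theorem pts_rt {n : ℕ} (hn : n ∈ pts) : rt n = 1 ∧ n < 512 := by
  have h := List.all_eq_true.1 pts_rt' n hn
  rw [Bool.and_eq_true, beq_iff_eq, Nat.blt_eq] at h
  exact h

theorem pts_add {m n : ℕ} (hm : m ∈ pts) (hn : n ∈ pts) (h : m ≠ n) : rt (m ^^^ n) = 2 := by
  have h1 := List.all_eq_true.1 (List.all_eq_true.1 pts_add' m hm) n hn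
  rw [Bool.or_eq_true, beq_iff_eq, beq_iff_eq] at h1
  exact h1.resolve_left h

/-- a set of masks closed under the generators is a union of orbits -/
theorem mem_iff_rt {C : ℕ → Prop} (hC : ∀ k ∈ [0, 1, 4], ∀ n < 512, C n → C (mt k n)) {n : ℕ} (hn : n < 512) :
    (C n ↔ C (rt n)) := by
  have h1 : ∀ m < 512, nx m < 512 ∧ (C m ↔ C (nx m)) := by
    intro m hm
    unfold nx
    by_cases h : m = 0 ∨ m = 1 ∨ m = 2 ∨ m = 24
    · rw [if_pos h]
      exact ⟨hm, Iff.rfl⟩
    · rw [if_neg h]
      generalize hd : (GN >>> (2 * m)) % 4 = d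
      have hg := gk_mem d
      refine ⟨mt_lt hg hm, hC _ hg m hm, fun h2 => ?_⟩
      obtain ⟨i0, i1, i4⟩ := mt_inv hm
      have h3 := mt_lt hg hm
      have h4 := hC _ hg _ h3 h2
      have h5 := hC _ hg _ (mt_lt hg h3) h4
      simp only [List.mem_cons, List.not_mem_nil, or_false] at hg
      rcases hg with h6 | h6 | h6
      · rw [h6, i0] at h4; exact h4
      · rw [h6, i1] at h4; exact h4
      · rw [h6, i4] at h5; exact h5
  have s1 := h1 n hn
  have s2 := h1 _ s1.1
  have s3 := h1 _ s2.1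
  have s4 := h1 _ s3.1
  have s5 := h1 _ s4.1
  have s6 := h1 _ s5.1
  have s7 := h1 _ s6.1
  have s8 := h1 _ s7.1
  have s9 := h1 _ s8.1
  have s10 := h1 _ s9.1
  have s11 := h1 _ s10.1
  unfold rt
  exact s1.2.trans (s2.2.trans (s3.2.trans (s4.2.trans (s5.2.trans (s6.2.trans (s7.2.trans (s8.2.trans (s9.2.trans (s10.2.trans (s11.2))))))))))

/-- a functional is given by its mask -/
theorem exists_mask (p : Fin 9 → ZMod 2) : ∃ n < 512, dec9 n = p := by
  refine ⟨Nat.ofBits fun i : Fin 9 => decide (p i = 1), Nat.ofBits_lt_two_pow _, ?_⟩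
  funext i
  unfold dec9
  rw [Nat.testBit_ofBits_lt _ _ i.2]
  have h : ∀ x : ZMod 2, (if decide (x = 1) = true then (1 : ZMod 2) else 0) = x := by decide
  exact h (p i)

theorem dec9_xor (m n : ℕ) : dec9 (m ^^^ n) = dec9 m + dec9 n := by
  funext i
  show (if (m ^^^ n).testBit i then (1 : ZMod 2) else 0) = (if m.testBit i then 1 else 0) + (if n.testBit i then 1 else 0)
  rw [Nat.testBit_xor]
  cases m.testBit i <;> cases n.testBit i <;> decide

theorem dec9_zero : dec9 0 = 0 := by
  funext i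
  show (if (0 : ℕ).testBit i then (1 : ZMod 2) else 0) = 0
  rw [Nat.zero_testBit]
  rfl

theorem dec9_inj {m n : ℕ} (hm : m < 512) (hn : n < 512) (h : dec9 m = dec9 n) : m = n := by
  apply Nat.eq_of_testBit_eq
  intro i
  by_cases hi : i < 9
  · have h1 := congrFun h ⟨i, hi⟩
    unfold dec9 at h1
    revert h1
    show (if m.testBit i then (1 : ZMod 2) else 0) = (if n.testBit i then 1 else 0) → _
    cases m.testBit i <;> cases n.testBit i <;> simp
  · have h9 : 512 ≤ 2 ^ i := by
      calc 512 = 2 ^ 9 := by norm_num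
        _ ≤ 2 ^ i := Nat.pow_le_pow_right (by norm_num) (by omega)
    rw [Nat.testBit_lt_two_pow (lt_of_lt_of_le hm h9), Nat.testBit_lt_two_pow (lt_of_lt_of_le hn h9)]

end Cfsg.Agent.H201.L34
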