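import Cfsg.Agent.H288.L34.Lam

/-!
# S5917: orbits of `SL₃(4)` on the functionals of the module of hermitian matrices (helper201)

Masks `m < 512` are functionals on `F₂⁹` (basis `B4` of helper288), `mt k` is the transpose of the generator `M k`,
`k = 0, 1, 4`. Orbits: `1 + 21 + 210 + 280`; the sum of two different functionals of the orbit of length 21 lies in the
orbit of length 210.
-/

set_option autoImplicit false
set_option maxRecDepth 100000

namespace Cfsg.Agent.H201.L34

open Cfsg.Agent.H288.L34 (M act)

/-- the parity of the nine lower bits -/
def par9 (x : ℕ) : Bool := (List.range 9).foldr (fun j b => xor (x.testBit j) b) false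

/-- the columns of the transposed matrices -/
def TM (k : ℕ) : List ℕ :=
  if k = 0 then [13, 10, 4, 8, 80, 160, 64, 128, 256] else
    if k = 1 then [11, 2, 12, 8, 144, 224, 64, 128, 256] else [8, 64, 128, 256, 6, 4, 48, 32, 1]

/-- the transpose of the generator `k` on masks -/
def mt (k m : ℕ) : ℕ := act (TM k) m

/-- the functional with the mask `n` -/
def dec9 (n : ℕ) : Fin 9 → ZMod 2 := fun i => if n.testBit i then 1 else 0

/-- the transpose of the generator `k` on vectors -/
def mtv {A : Type*} [AddCommMonoid A] (k : ℕ) (p : Fin 9 → A) : Fin 9 → A := fun i =>
  ∑ j : Fin 9, if ((M k).getD i 0).testBit j then p j else 0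

/-- the next step to the representative, base four -/
def GN : ℕ := 1504795645053434017447060252597087794932109661587250835741195917350160555435149545724178637583965364858854499274736566130903118333177694780327058795834299215140544924251511914169991710085328442423481548529968298646412574139928238918331394750760296872937410075527760832446548083959735592367421639462757204352

/-- the generator -/
def gk (d : ℕ) : ℕ := if d = 0 then 0 else if d = 1 then 1 else 4

/-- the orbit of length 21 -/
def pts : List ℕ := [1, 8, 11, 13, 15, 256, 273, 289, 305, 328, 349, 367, 379, 392, 411, 429, 447, 456, 479, 491, 509]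

/-- one step to the representative -/
def nx (m : ℕ) : ℕ := if m = 0 ∨ m = 1 ∨ m = 2 ∨ m = 24 then m else mt (gk ((GN >>> (2 * m)) % 4)) m

/-- the representative of the orbit -/
def rt (m : ℕ) : ℕ := nx (nx (nx (nx (nx (nx (nx (nx (nx (nx (nx m))))))))))

/-- the columns are right -/
theorem tab_TM0 : ((List.range 512).all fun n => (List.range 9).all fun i =>
    par9 ((M 0).getD i 0 &&& n) == (mt 0 n).testBit i) = true := by decide +kernel

theorem tab_TM1 : ((List.range 512).all fun n => (List.range 9).all fun i =>
    par9 ((M 1).getD i 0 &&& n) == (mt 1 n).testBit i) = true := by decide +kernel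

theorem tab_TM4 : ((List.range 512).all fun n => (List.range 9).all fun i =>
    par9 ((M 4).getD i 0 &&& n) == (mt 4 n).testBit i) = true := by decide +kernel

theorem mt_lt' : ([0, 1, 4].all fun k => (List.range 512).all fun n => Nat.blt (mt k n) 512) = true := by decide +kernel

theorem mt_inv' : ((List.range 512).all fun n => (mt 0 (mt 0 n) == n) && (mt 1 (mt 1 n) == n) &&
    (mt 4 (mt 4 (mt 4 n)) == n)) = true := by decide +kernel

theorem rt_mem' : ((List.range 512).all fun n => ((rt n == 0) && (n == 0)) || ((rt n == 1) && pts.contains n) || (rt n == 2) ||
    (rt n == 24)) = true := by decide +kernel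

theorem card_two : ((List.range 512).filter fun n => rt n == 2).length = 210 := by decide +kernel

theorem card_three : ((List.range 512).filter fun n => rt n == 24).length = 280 := by decide +kernel

theorem pts_rt' : (pts.all fun n => (rt n == 1) && Nat.blt n 512) = true := by decide +kernel

theorem pts_add' : (pts.all fun m => pts.all fun n => (m == n) || (rt (m ^^^ n) == 2)) = true := by decide +kernel

end Cfsg.Agent.H201.L34
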